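import Mathlib

/-!
Modules for the quaternion group in characteristic two: free over the centre implies free.
`a = 1 + i`, `b = 1 + j`, `N = 1 + z = a ^ 2 = b ^ 2`, `b a = a b + N i j`.
-/

namespace Cfsg.Agent.H927.L34

set_option linter.unusedSimpArgs false

section Abs

variable {U : Type*} [AddCommGroup U]

theorem eq_of_add (h2 : ∀ x : U, x + x = 0) {x y : U} (h : x + y = 0) : x = y := by
  have h3 := h2 y
  have : x + y = y + y := by rw [h, h3]
  exact add_right_cancel this

/-- If `a ^ 4 = 0` and `ker a ^ 2 = im a ^ 2` then `ker a = im a ^ 3`. -/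
theorem ker_a (h2 : ∀ x : U, x + x = 0) (a : U →+ U)
    (hN : ∀ x, a (a (a (a x))) = 0) (hex : ∀ x, a (a x) = 0 → ∃ y, x = a (a y))
    {x : U} (h : a x = 0) : ∃ v, x = a (a (a v)) := by
  obtain ⟨w, hw⟩ := hex x (by rw [h, map_zero])
  have h3 : a (a (a w)) = 0 := by rw [← hw, h]
  obtain ⟨v, hv⟩ := hex (a w) h3
  have h4 : a (w + a v) = 0 := by
    rw [map_add, hv]; exact h2 _
  obtain ⟨t, ht⟩ := hex (w + a v) (by rw [h4, map_zero])
  refine ⟨v, ?_⟩
  have h5 : w = a v + a (a t) := by
    rw [← ht]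
    have := h2 (a v)
    rw [add_comm w, ← add_assoc, this, zero_add]
  rw [hw, h5]
  simp only [map_add, hN, add_zero]

variable (h2 : ∀ x : U, x + x = 0) (a b : U →+ U)
  (hb : ∀ x, b (b x) = a (a x))
  (hba : ∀ x, b (a x) = a (b x) + a (a (x + a x + b x + a (b x))))
  (hN : ∀ x, a (a (a (a x))) = 0)
  (hex : ∀ x, a (a x) = 0 → ∃ y, x = a (a y))
  (hTr : ∀ x, a (a (a (b x))) = 0)

include h2 hb hba hN hex hTr in
/-- A module for `Q8` on which `z` is free and the norm is zero is zero. -/
theorem zero_of_tr (x : U) : x = 0 := by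
  have c2 : ∀ x y : U, x + (x + y) = y := fun x y => by rw [← add_assoc, h2, zero_add]
  -- b commutes with N
  have hbN : ∀ x, b (a (a x)) = a (a (b x)) := fun x => by rw [← hb x, hb (b x)]
  have kb : ∀ {x : U}, b x = 0 → ∃ v, x = b (a (a v)) := by
    intro x hx
    obtain ⟨v, hv⟩ := ker_a h2 b (fun x => by rw [hb, hb]; simpa using hN x)
      (fun x hx => by
        rw [hb] at hx
        obtain ⟨y, hy⟩ := hex x hx
        exact ⟨y, by rw [hb]; exact hy⟩) hx
    exact ⟨v, by rw [hv, hb v]⟩
  have abN : ∀ w, a (b (a (a w))) = 0 := fun w => by rw [hbN, hTr]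
  have baN : ∀ w, b (a (a (a w))) = 0 := fun w => by
    rw [hba (a (a w)), abN]
    simp only [map_add, hN, abN, hbN, map_zero, add_zero, zero_add]
  -- L0
  have L0 : ∀ w, ∃ v, a (a (a w)) = b (a (a v)) := fun w => kb (baN w)
  -- formula for b s
  have Ns : ∀ m m', a (a (a m)) = b (a (a m')) → ∃ t, a m + b m' = a (a t) := by
    intro m m' h
    apply hex
    simp only [map_add]
    rw [h, hbN]; exact h2 _
  have bs : ∀ m m', b (a m + b m') =
      a (b m) + a (a m) + a (a (a m)) + b (a (a m)) + a (a m') := by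
    intro m m'
    rw [map_add, hba, hb, hbN]
    simp only [map_add, hTr, add_zero]
    abel
  have kba : ∀ {x : U}, b x = 0 → a x = 0 := by
    intro x hx
    obtain ⟨v, rfl⟩ := kb hx
    exact abN v
  have L1 : ∀ m m', a (a (a m)) = b (a (a m')) →
      a (a (a m')) = b (a (a m)) + b (a (a m')) := by
    intro m m' h
    obtain ⟨m'', h'⟩ := L0 m'
    obtain ⟨t, ht⟩ := Ns m m' h
    obtain ⟨t', ht'⟩ := Ns m' m'' h'
    have e1 : a (a (a t)) = a (a m) + a (b m') := by rw [← ht, map_add]
    have e2 : b (a (a t')) = a (b m') + a (a m') + a (a (a m')) + b (a (a m')) + a (a m'') := by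
      rw [← ht', bs]
    have e3 : a (a m) + a (a m') + a (a m'') =
        a (a (a t)) + b (a (a t')) + a (a (a m')) + b (a (a m')) := by
      apply eq_of_add h2
      rw [e1, e2]
      simp only [add_assoc, add_comm, add_left_comm, h2, c2]
    have e4 : b (a (a m) + a (a m') + a (a m'')) = 0 := by
      rw [e3]
      simp only [map_add, baN, hb, hN, add_zero]
    rw [map_add, map_add] at e4
    rw [h']
    exact (eq_of_add h2 e4).symm
  -- final
  have L2 : ∀ m0, b (a (a m0)) = 0 := by
    intro m0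
    obtain ⟨m1, h01⟩ := L0 m0
    have h12 := L1 m0 m1 h01
    obtain ⟨t0, ht0⟩ := Ns m0 m1 h01
    obtain ⟨t1, ht1⟩ := Ns m1 (m0 + m1) (by rw [h12]; simp only [map_add])
    obtain ⟨u0, hu0⟩ := L0 t0
    obtain ⟨u1, hu1⟩ := L0 t1
    have hL := L1 t0 u0 hu0
    have bs1 := bs m1 (m0 + m1)
    rw [ht1] at bs1
    have as0 : a (a (a t0)) = a (a m0) + a (b m1) := by rw [← ht0, map_add]
    have as1 : a (a (a t1)) = a (a m1) + a (b m0) + a (b m1) := by
      rw [← ht1]; simp only [map_add]; abel
    have hs2 : a (m0 + m1) + b m0 = a (a t0) + a (a t1) := by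
      rw [← ht0, ← ht1]
      simp only [map_add]
      apply eq_of_add h2
      simp only [add_assoc, add_comm, add_left_comm, h2, c2]
    have bs2 := bs (m0 + m1) m0
    rw [hs2] at bs2
    simp only [map_add] at bs1 bs2
    -- E1, E2
    have E1 : b (a (a u0)) + b (a (a t1)) + b (a (a m0)) = 0 := by
      rw [← hu0, as0, bs1, h12]
      simp only [add_assoc, add_comm, add_left_comm, h2, c2]
    have E2 : b (a (a u1)) + b (a (a t0)) + b (a (a t1)) + b (a (a m1)) = 0 := by
      rw [← hu1, as1]
      have e : a (a m1) + a (b m0) + a (b m1) + b (a (a t0)) + b (a (a t1)) + b (a (a m1)) =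
        a (a m1) + a (b m0) + a (b m1) + (b (a (a t0)) + b (a (a t1))) + b (a (a m1)) := by abel
      rw [e, bs2, h01, h12]
      simp only [add_assoc, add_comm, add_left_comm, h2, c2]
    have E3 := kba (x := a (a u0) + a (a t1) + a (a m0)) (by simpa only [map_add] using E1)
    simp only [map_add] at E3
    rw [hL, hu1, h01] at E3
    -- E3 : b t0 + b u0 + b u1 + b m1 = 0
    have E4 : b (a (a u0)) + b (a (a t1)) = 0 := by
      have h := congrArg₂ (· + ·) E3 E2
      simp only [add_zero] at h
      rw [← h]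
      apply eq_of_add h2
      simp only [add_assoc, add_comm, add_left_comm, h2, c2]
    rw [E4, zero_add] at E1
    exact E1
  have L3 : ∀ {x : U}, b x = 0 → x = 0 := by
    intro x hx
    obtain ⟨v, rfl⟩ := kb hx
    exact L2 v
  apply L3; apply L3
  rw [hb]
  exact L3 (L2 x)

end Abs

section Mod

theorem add_self_zero (K : Type*) {U : Type*} [Field K] [CharP K 2] [AddCommGroup U]
    [Module K U] (x : U) : x + x = 0 := by
  have h : (2 : K) • x = 0 := by
    rw [show (2 : K) = 0 from CharTwo.two_eq_zero, zero_smul]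
  rwa [two_smul] at h

variable {K U : Type*} [Field K] [CharP K 2] [AddCommGroup U] [Module K U]

/-- Operator form: `i`, `j` with `i ^ 2 = j ^ 2 = z`, `i j = z j i`, `z ^ 2 = 1`; if
`ker (1 + z) = im (1 + z)` (the module is free over `z`) and `U` is nonzero, then the norm
`(1 + z) (1 + i) (1 + j)` is not zero. -/
theorem exists_tr_ne (i j : U →ₗ[K] U) (hij2 : ∀ x, j (j x) = i (i x))
    (hji : ∀ x, i (j x) = i (i (j (i x)))) (h4 : ∀ x, i (i (i (i x))) = x)
    (hex : ∀ x, x + i (i x) = 0 → ∃ y, x = y + i (i y)) (hne : ∃ x : U, x ≠ 0) :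
    ∃ x, (x + j x + i (x + j x)) + i (i (x + j x + i (x + j x))) ≠ 0 := by
  by_contra hcon
  push Not at hcon
  have h2 : ∀ x : U, x + x = 0 := add_self_zero K
  have c2 : ∀ x y : U, x + (x + y) = y := fun x y => by rw [← add_assoc, h2, zero_add]
  obtain ⟨x0, hx0⟩ := hne
  apply hx0
  set a : U →+ U := (LinearMap.id + i : U →ₗ[K] U).toAddMonoidHom with ha
  set b : U →+ U := (LinearMap.id + j : U →ₗ[K] U).toAddMonoidHom with hb
  have av : ∀ x, a x = x + i x := fun x => rfl
  have bv : ∀ x, b x = x + j x := fun x => rfl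
  have aa : ∀ x, a (a x) = x + i (i x) := fun x => by
    simp only [av, map_add]
    rw [show x + i x + (i x + i (i x)) = x + (i x + (i x + i (i x))) by abel, c2]
  have hji' : ∀ x, j (i x) = i (i (i (j x))) := fun x => by
    rw [hji x]; exact (h4 _).symm
  refine zero_of_tr h2 a b ?_ ?_ ?_ ?_ ?_ x0
  · intro x
    rw [aa]
    simp only [bv, map_add, hij2]
    rw [show x + j x + (j x + i (i x)) = x + (j x + (j x + i (i x))) by abel, c2]
  · intro x
    rw [aa]
    simp only [av, bv, map_add, hji']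
    apply eq_of_add h2
    simp only [add_assoc, add_comm, add_left_comm, h2, c2, add_zero]
  · intro x
    rw [aa, aa]
    simp only [map_add, h4]
    apply eq_of_add h2
    simp only [add_assoc, add_comm, add_left_comm, h2, c2, add_zero]
  · intro x hx
    rw [aa] at hx
    obtain ⟨y, hy⟩ := hex x hx
    exact ⟨y, by rw [aa]; exact hy⟩
  · intro x
    rw [aa]
    have := hcon x
    simpa only [av, bv] using this

end Mod

end Cfsg.Agent.H927.L34
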